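import Cfsg.Agent.H520.CcpCfg

/-!
# Borel–Tits without (B, N)-pairs (helper520, S4114)

* `BTA r G` : every automorphism normalising a nontrivial `r`-subgroup normalises a proper subgroup containing the
  normaliser of a Sylow `r`-subgroup;
* `NoSwap r G` : no `Cfg α` with `α` normalising a Sylow `r`-subgroup and interchanging two proper subgroups above its
  normaliser.
-/

set_option autoImplicit false

namespace Cfsg.Agent.H520

/-- Borel–Tits for automorphisms. -/
def BTA (r : ℕ) (G : Type*) [Group G] : Prop :=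
  ∀ α : MulAut G, ¬ EL r α → ∃ (M : Subgroup G) (U : Sylow r G), M ≠ ⊤ ∧
    Subgroup.normalizer ((U : Subgroup G) : Set G) ≤ M ∧ ∀ m ∈ M, α m ∈ M

/-- No graph automorphism of rank two. -/
def NoSwap (r : ℕ) (G : Type*) [Group G] : Prop :=
  ∀ α : MulAut G, Cfg α → ∀ U : Sylow r G, (∀ m ∈ (U : Subgroup G), α m ∈ (U : Subgroup G)) →
    ∀ M₁ M₂ : Subgroup G, Subgroup.normalizer ((U : Subgroup G) : Set G) < M₁ →
      Subgroup.normalizer ((U : Subgroup G) : Set G) < M₂ → M₁ ≠ M₂ → M₁ ≠ ⊤ → M₂ ≠ ⊤ →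
        (∀ m ∈ M₁, α m ∈ M₂) → (∀ m ∈ M₂, α m ∈ M₁) → False

end Cfsg.Agent.H520
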