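import Mathlib
import Cfsg.Agent.H538.MFacts

/-!
# Diagram automorphisms with isolated moved nodes (helper520, S4114)

`CT M σ` : in each `σ`-stable proper set of nodes the moved nodes are isolated. `comb_A` (`n ≥ 4`), `comb_B` (`n ≥ 3`),
`comb_D`, `comb_D4` (`σ² = 1`), `comb_E6`, `comb_E7`, `comb_E8`, `comb_F4` : `σ = 1`.
-/

set_option autoImplicit false

namespace Cfsg.Agent.H520.Comb

open Cfsg.Agent.LieRecognition.BNCox Cfsg.Agent.Nodes Cfsg.Agent.H538.MFacts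

variable {l : ℕ} {M : CoxeterMatrix (Fin l)} {σ : Equiv.Perm (Fin l)}

/-- The moved nodes are isolated. -/
def CT (M : CoxeterMatrix (Fin l)) (σ : Equiv.Perm (Fin l)) : Prop :=
  ∀ T : Set (Fin l), T ≠ Set.univ → (∀ i ∈ T, σ i ∈ T) → ∀ i ∈ T, σ i ≠ i → ∀ j ∈ T, j ≠ i → M i j = 2

theorem CT.fix (h : CT M σ) {T : Set (Fin l)} (hT : T ≠ Set.univ) (hst : ∀ i ∈ T, σ i ∈ T)
    (hnb : ∀ i ∈ T, ∃ j ∈ T, j ≠ i ∧ M i j ≠ 2) : ∀ i ∈ T, σ i = i := by
  intro i hi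
  by_contra hne
  obtain ⟨j, hj, hji, hM⟩ := hnb i hi
  exact hM (h T hT hst i hi hne j hj hji)

/-- two fixed nodes `a`, `b` -/
theorem CT.fix2 (h : CT M σ) {a b : Fin l} (ha : σ a = a) (hb : σ b = b)
    (nb : Fin l → Fin l) (hnb : ∀ i, i ≠ a → i ≠ b → nb i ≠ a ∧ nb i ≠ b ∧ nb i ≠ i ∧ M i (nb i) ≠ 2) (i : Fin l) :
    σ i = i := by
  by_cases h1 : i = a
  · rw [h1, ha]
  by_cases h2 : i = b
  · rw [h2, hb]
  refine h.fix (T := {i | i ≠ a ∧ i ≠ b}) ?_ ?_ ?_ i ⟨h1, h2⟩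
  · intro h3
    have : a ∈ {i | i ≠ a ∧ i ≠ b} := by rw [h3]; trivial
    exact this.1 rfl
  · rintro i ⟨h1, h2⟩
    refine ⟨fun h3 => h1 ?_, fun h3 => h2 ?_⟩
    · rw [← ha] at h3; exact σ.injective h3
    · rw [← hb] at h3; exact σ.injective h3
  · rintro i ⟨h1, h2⟩
    obtain ⟨h3, h4, h5⟩ := hnb i h1 h2
    exact ⟨nb i, ⟨h3, h4⟩, h5⟩

theorem comb_E6 {σ : Equiv.Perm (Fin 6)} (hM : ∀ i j, CoxeterMatrix.E₆ (σ i) (σ j) = CoxeterMatrix.E₆ i j)
    (h : CT CoxeterMatrix.E₆ σ) : ∀ i, σ i = i := by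
  have h1 : ∀ x : Fin 6, dg2 CoxeterMatrix.E₆ x = dg2 CoxeterMatrix.E₆ 3 → x = 3 := by decide
  have h2 : ∀ x : Fin 6, dg2 CoxeterMatrix.E₆ x = dg2 CoxeterMatrix.E₆ 1 → x = 1 := by decide
  exact h.fix2 (h1 _ (dg2_inv hM 3)) (h2 _ (dg2_inv hM 1)) ![2, 0, 0, 0, 5, 4] (by decide)

theorem comb_E7 {σ : Equiv.Perm (Fin 7)} (hM : ∀ i j, CoxeterMatrix.E₇ (σ i) (σ j) = CoxeterMatrix.E₇ i j)
    (h : CT CoxeterMatrix.E₇ σ) : ∀ i, σ i = i := by
  have h1 : ∀ x : Fin 7, dg2 CoxeterMatrix.E₇ x = dg2 CoxeterMatrix.E₇ 3 → x = 3 := by decide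
  have h2 : ∀ x : Fin 7, dg2 CoxeterMatrix.E₇ x = dg2 CoxeterMatrix.E₇ 1 → x = 1 := by decide
  exact h.fix2 (h1 _ (dg2_inv hM 3)) (h2 _ (dg2_inv hM 1)) ![2, 0, 0, 0, 5, 4, 5] (by decide)

theorem comb_E8 {σ : Equiv.Perm (Fin 8)} (hM : ∀ i j, CoxeterMatrix.E₈ (σ i) (σ j) = CoxeterMatrix.E₈ i j)
    (h : CT CoxeterMatrix.E₈ σ) : ∀ i, σ i = i := by
  have h1 : ∀ x : Fin 8, dg2 CoxeterMatrix.E₈ x = dg2 CoxeterMatrix.E₈ 3 → x = 3 := by decide
  have h2 : ∀ x : Fin 8, dg2 CoxeterMatrix.E₈ x = dg2 CoxeterMatrix.E₈ 1 → x = 1 := by decide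
  exact h.fix2 (h1 _ (dg2_inv hM 3)) (h2 _ (dg2_inv hM 1)) ![2, 0, 0, 0, 5, 4, 5, 6] (by decide)

theorem comb_F4 {σ : Equiv.Perm (Fin 4)} (hM : ∀ i j, CoxeterMatrix.F₄ (σ i) (σ j) = CoxeterMatrix.F₄ i j)
    (h : CT CoxeterMatrix.F₄ σ) : ∀ i, σ i = i := by
  have h1 : ∀ x : Fin 4, dg2 CoxeterMatrix.F₄ x = dg2 CoxeterMatrix.F₄ 1 → x = 1 ∨ x = 2 := by decide
  have h2 : ∀ x : Fin 4, dg2 CoxeterMatrix.F₄ x = dg2 CoxeterMatrix.F₄ 2 → x = 1 ∨ x = 2 := by decide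
  have hs1 := h1 _ (dg2_inv hM 1)
  have hs2 := h2 _ (dg2_inv hM 2)
  have h3 : ∀ i ∈ ({1, 2} : Set (Fin 4)), σ i = i := by
    refine h.fix ?_ ?_ ?_
    · intro h4
      have : (0 : Fin 4) ∈ ({1, 2} : Set (Fin 4)) := by rw [h4]; trivial
      simp at this
    · rintro i (rfl | rfl)
      · exact hs1
      · exact hs2
    · rintro i (rfl | rfl)
      · exact ⟨2, by simp, by decide, by decide⟩
      · exact ⟨1, by simp, by decide, by decide⟩
  have e1 := h3 1 (by simp)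
  have e2 := h3 2 (by simp)
  have h5 : ∀ x : Fin 4, CoxeterMatrix.F₄ x 1 = CoxeterMatrix.F₄ 0 1 → x = 0 := by decide
  have h6 : ∀ x : Fin 4, CoxeterMatrix.F₄ x 2 = CoxeterMatrix.F₄ 3 2 → x = 3 := by decide
  have e0 := h5 (σ 0) (by have := hM 0 1; rwa [e1] at this)
  have e3 := h6 (σ 3) (by have := hM 3 2; rwa [e2] at this)
  intro i
  fin_cases i
  · exact e0
  · exact e1
  · exact e2
  · exact e3

/-- type `A_n`, `n ≥ 4` -/
theorem comb_A {n : ℕ} (hn : 4 ≤ n) {σ : Equiv.Perm (Fin n)} (hM : ∀ i j, cA n (σ i) (σ j) = cA n i j)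
    (h : CT (cA n) σ) : ∀ i, σ i = i := by
  have hadj : ∀ i j : Fin n, i ≠ j → (((σ i : ℕ) + 1 = σ j ∨ (σ j : ℕ) + 1 = σ i) ↔ ((i : ℕ) + 1 = j ∨ (j : ℕ) + 1 = i)) := by
    intro i j hij
    have h1 := cA_ne_two (σ i) (σ j)
    have h2 := cA_ne_two i j
    rw [hM] at h1
    rw [h1] at h2
    have h3 : σ i ≠ σ j := fun h => hij (σ.injective h)
    simp only [h3, hij, false_or] at h2
    exact h2
  -- the ends
  have hend : ∀ e : Fin n, ((e : ℕ) = 0 ∨ (e : ℕ) = n - 1) → ((σ e : ℕ) = 0 ∨ (σ e : ℕ) = n - 1) := by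
    intro e he
    by_contra hcon
    push Not at hcon
    have hlt := (σ e).2
    obtain ⟨x, hx⟩ := σ.surjective ⟨(σ e : ℕ) - 1, by omega⟩
    obtain ⟨y, hy⟩ := σ.surjective ⟨(σ e : ℕ) + 1, by omega⟩
    have hx' : (σ x : ℕ) = (σ e : ℕ) - 1 := congrArg Fin.val hx
    have hy' : (σ y : ℕ) = (σ e : ℕ) + 1 := congrArg Fin.val hy
    have hxe : x ≠ e := by rintro rfl; omega
    have hye : y ≠ e := by rintro rfl; omega
    have h1 := (hadj x e hxe).1 (by omega)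
    have h2 := (hadj y e hye).1 (by omega)
    have hxy : x = y := by
      apply Fin.ext
      have := x.2
      have := y.2
      omega
    rw [hxy] at hx'
    omega
  set z : Fin n := ⟨0, by omega⟩ with hz
  set w : Fin n := ⟨n - 1, by omega⟩ with hw
  set T : Set (Fin n) := {i | i ≠ z ∧ i ≠ w} with hT
  have hzw : z ≠ w := by
    intro h1
    have := congrArg Fin.val h1
    simp only [hz, hw] at this
    omega
  have hz' : σ z = z ∨ σ z = w := by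
    rcases hend z (Or.inl rfl) with h1 | h1
    · exact Or.inl (Fin.ext h1)
    · exact Or.inr (Fin.ext h1)
  have hw' : σ w = z ∨ σ w = w := by
    rcases hend w (Or.inr rfl) with h1 | h1
    · exact Or.inl (Fin.ext h1)
    · exact Or.inr (Fin.ext h1)
  have hst : ∀ i ∈ T, σ i ∈ T := by
    rintro i ⟨h1, h2⟩
    refine ⟨fun h3 => ?_, fun h3 => ?_⟩
    · rcases hz' with h4 | h4
      · exact h1 (σ.injective (h3.trans h4.symm))
      · rcases hw' with h5 | h5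
        · exact h2 (σ.injective (h3.trans h5.symm))
        · exact hzw (σ.injective (h4.trans h5.symm))
    · rcases hz' with h4 | h4
      · rcases hw' with h5 | h5
        · exact hzw (σ.injective (h4.trans h5.symm))
        · exact h2 (σ.injective (h3.trans h5.symm))
      · exact h1 (σ.injective (h3.trans h4.symm))
  have hTu : T ≠ Set.univ := by
    intro h1
    have : z ∈ T := by rw [h1]; trivial
    exact this.1 rfl
  have hone : ∀ i ∈ T, σ i = i := by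
    refine h.fix hTu hst ?_
    rintro i ⟨h1, h2⟩
    have hi := i.2
    have h1' : (i : ℕ) ≠ 0 := fun h3 => h1 (Fin.ext h3)
    have h2' : (i : ℕ) ≠ n - 1 := fun h3 => h2 (Fin.ext h3)
    by_cases h3 : (i : ℕ) + 1 < n - 1
    · refine ⟨⟨(i : ℕ) + 1, by omega⟩, ⟨fun h4 => ?_, fun h4 => ?_⟩, fun h4 => ?_, ?_⟩
      · have : (i : ℕ) + 1 = 0 := congrArg Fin.val h4
        omega
      · have : (i : ℕ) + 1 = n - 1 := congrArg Fin.val h4
        omega
      · have : (i : ℕ) + 1 = i := congrArg Fin.val h4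
        omega
      · rw [cA_ne_two]
        exact Or.inr (Or.inl rfl)
    · refine ⟨⟨(i : ℕ) - 1, by omega⟩, ⟨fun h4 => ?_, fun h4 => ?_⟩, fun h4 => ?_, ?_⟩
      · have : (i : ℕ) - 1 = 0 := congrArg Fin.val h4
        omega
      · have : (i : ℕ) - 1 = n - 1 := congrArg Fin.val h4
        omega
      · have : (i : ℕ) - 1 = i := congrArg Fin.val h4
        omega
      · rw [cA_ne_two]
        refine Or.inr (Or.inr ?_)
        show (i : ℕ) - 1 + 1 = i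
        omega
  have h1 : σ ⟨1, by omega⟩ = ⟨1, by omega⟩ := by
    refine hone _ ⟨fun h4 => ?_, fun h4 => ?_⟩
    · have : (1 : ℕ) = 0 := congrArg Fin.val h4
      omega
    · have : (1 : ℕ) = n - 1 := congrArg Fin.val h4
      omega
  have hzz : σ z = z := by
    rcases hz' with h2 | h2
    · exact h2
    · exfalso
      have h3 := (hadj z ⟨1, by omega⟩ (fun h4 => by
        have : (0 : ℕ) = 1 := congrArg Fin.val h4
        omega)).2 (Or.inl rfl)
      rw [h1, h2] at h3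
      simp only [hw] at h3
      omega
  intro i
  by_cases hi : i = z
  · rw [hi, hzz]
  by_cases hi' : i = w
  · rw [hi']
    rcases hw' with h2 | h2
    · exact (hzw (σ.injective (hzz.trans h2.symm))).elim
    · exact h2
  exact hone i ⟨hi, hi'⟩

/-- type `B_n`, `n ≥ 3` (no condition) -/
theorem comb_B {n : ℕ} (hn : 3 ≤ n) {σ : Equiv.Perm (Fin n)}
    (hM : ∀ i j, CoxeterMatrix.B n (σ i) (σ j) = CoxeterMatrix.B n i j) : ∀ i, σ i = i := by
  have hne : ∀ i j : Fin n, i ≠ j → (σ i : ℕ) ≠ σ j := fun i j hij h => hij (σ.injective (Fin.ext h))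
  have hadj : ∀ i j : Fin n, i ≠ j → (((σ i : ℕ) + 1 = σ j ∨ (σ j : ℕ) + 1 = σ i) ↔ ((i : ℕ) + 1 = j ∨ (j : ℕ) + 1 = i)) := by
    intro i j hij
    have h1 := cB_ne_two (σ i) (σ j)
    have h2 := cB_ne_two i j
    rw [hM] at h1
    rw [h1] at h2
    have h3 : σ i ≠ σ j := fun h => hij (σ.injective h)
    simp only [h3, hij, false_or] at h2
    exact h2
  have h4 : ∀ i j : Fin n, CoxeterMatrix.B n i j = 4 ↔ ((i : ℕ) = n - 1 ∧ (j : ℕ) = n - 2 ∨ (j : ℕ) = n - 1 ∧ (i : ℕ) = n - 2) := by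
    intro i j
    rw [cB_apply]
    by_cases h : i = j
    · subst h
      simp only [if_true]
      constructor
      · intro h; omega
      · intro h; omega
    · rw [if_neg h]
      split_ifs with h2 h3
      · simp [h2]
      · simp only [h2, iff_false]
        norm_num
      · simp only [h2, iff_false]
        norm_num
  have e1 : (σ ⟨n - 1, by omega⟩ : ℕ) = n - 1 ∧ (σ ⟨n - 2, by omega⟩ : ℕ) = n - 2 := by
    have h5 := (h4 ⟨n - 1, by omega⟩ ⟨n - 2, by omega⟩).2 (Or.inl ⟨rfl, rfl⟩)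
    rw [← hM, h4] at h5
    rcases h5 with h5 | h5
    · exact h5
    · exfalso
      have h6 := (hadj ⟨n - 2, by omega⟩ ⟨n - 3, by omega⟩ (fun h => by
        have : n - 2 = n - 3 := congrArg Fin.val h
        omega)).2 (Or.inr (by show n - 3 + 1 = n - 2; omega))
      have h7 := (σ ⟨n - 3, by omega⟩).2
      have h8 := hne ⟨n - 3, by omega⟩ ⟨n - 1, by omega⟩ (fun h => by
        have : n - 3 = n - 1 := congrArg Fin.val h
        omega)
      omega
  have key : ∀ k : ℕ, ∀ hk : k < n, (σ ⟨n - 1 - k, by omega⟩ : ℕ) = n - 1 - k := by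
    intro k
    induction k using Nat.strong_induction_on with
    | _ k ih =>
      intro hk
      rcases (show k = 0 ∨ k = 1 ∨ 2 ≤ k by omega) with rfl | rfl | h2
      · exact e1.1
      · have e2 : n - 1 - 1 = n - 2 := by omega
        simp only [e2]
        exact e1.2
      · have h5 := ih (k - 1) (by omega) (by omega)
        have h6 := ih (k - 2) (by omega) (by omega)
        have h7 := (hadj ⟨n - 1 - k, by omega⟩ ⟨n - 1 - (k - 1), by omega⟩ (fun h => by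
          have : n - 1 - k = n - 1 - (k - 1) := congrArg Fin.val h
          omega)).2 (Or.inl (by show n - 1 - k + 1 = n - 1 - (k - 1); omega))
        have h8 := hne ⟨n - 1 - k, by omega⟩ ⟨n - 1 - (k - 2), by omega⟩ (fun h => by
          have : n - 1 - k = n - 1 - (k - 2) := congrArg Fin.val h
          omega)
        omega
  intro i
  apply Fin.ext
  have h5 := key (n - 1 - i) (by have := i.2; omega)
  have h6 : (⟨n - 1 - (n - 1 - (i : ℕ)), by have := i.2; omega⟩ : Fin n) = i := Fin.ext (by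
    show n - 1 - (n - 1 - (i : ℕ)) = i
    have := i.2
    omega)
  rw [h6] at h5
  have := i.2
  omega

/-- type `D_{n+2}`, `n ≥ 3` -/
theorem comb_D {n : ℕ} (hn : 3 ≤ n) {σ : Equiv.Perm (Fin (n + 2))}
    (hM : ∀ i j, TypeD.M n (σ i) (σ j) = TypeD.M n i j) (h : CT (TypeD.M n) σ) : ∀ i, σ i = i := by
  have hne : ∀ i j : Fin (n + 2), i ≠ j → (σ i : ℕ) ≠ σ j := fun i j hij h => hij (σ.injective (Fin.ext h))
  have hA : ∀ i j : Fin (n + 2), i ≠ j → (TypeD.M n i j ≠ 2 ↔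
      (((j : ℕ) < n + 1 ∧ (i : ℕ) + 1 = j ∨ (j : ℕ) = n + 1 ∧ (i : ℕ) + 2 = j) ∨
        ((i : ℕ) < n + 1 ∧ (j : ℕ) + 1 = i ∨ (i : ℕ) = n + 1 ∧ (j : ℕ) + 2 = i))) := by
    intro i j hij
    rw [cD_ne_two]
    simp only [hij, false_or]
    rfl
  have hadj : ∀ i j : Fin (n + 2), i ≠ j →
      ((((σ j : ℕ) < n + 1 ∧ (σ i : ℕ) + 1 = σ j ∨ (σ j : ℕ) = n + 1 ∧ (σ i : ℕ) + 2 = σ j) ∨
        ((σ i : ℕ) < n + 1 ∧ (σ j : ℕ) + 1 = σ i ∨ (σ i : ℕ) = n + 1 ∧ (σ j : ℕ) + 2 = σ i)) ↔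
      (((j : ℕ) < n + 1 ∧ (i : ℕ) + 1 = j ∨ (j : ℕ) = n + 1 ∧ (i : ℕ) + 2 = j) ∨
        ((i : ℕ) < n + 1 ∧ (j : ℕ) + 1 = i ∨ (i : ℕ) = n + 1 ∧ (j : ℕ) + 2 = i))) := by
    intro i j hij
    rw [← hA i j hij, ← hA (σ i) (σ j) (fun h => hij (σ.injective h)), hM]
  have vne : ∀ {a b : ℕ} (ha : a < n + 2) (hb : b < n + 2), a ≠ b → (⟨a, ha⟩ : Fin (n + 2)) ≠ ⟨b, hb⟩ :=
    fun _ _ hab h => hab (congrArg Fin.val h)
  -- the branch node
  have hb : (σ ⟨n - 1, by omega⟩ : ℕ) = n - 1 := by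
    have h1 := (hadj ⟨n - 1, by omega⟩ ⟨n - 2, by omega⟩ (vne _ _ (by omega))).2 (by
      show ((n - 2 < n + 1 ∧ n - 1 + 1 = n - 2 ∨ n - 2 = n + 1 ∧ n - 1 + 2 = n - 2) ∨
        (n - 1 < n + 1 ∧ n - 2 + 1 = n - 1 ∨ n - 1 = n + 1 ∧ n - 2 + 2 = n - 1))
      omega)
    have h2 := (hadj ⟨n - 1, by omega⟩ ⟨n, by omega⟩ (vne _ _ (by omega))).2 (by
      show ((n < n + 1 ∧ n - 1 + 1 = n ∨ n = n + 1 ∧ n - 1 + 2 = n) ∨
        (n - 1 < n + 1 ∧ n + 1 = n - 1 ∨ n - 1 = n + 1 ∧ n + 2 = n - 1))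
      omega)
    have h3 := (hadj ⟨n - 1, by omega⟩ ⟨n + 1, by omega⟩ (vne _ _ (by omega))).2 (by
      show ((n + 1 < n + 1 ∧ n - 1 + 1 = n + 1 ∨ n + 1 = n + 1 ∧ n - 1 + 2 = n + 1) ∨
        (n - 1 < n + 1 ∧ n + 1 + 1 = n - 1 ∨ n - 1 = n + 1 ∧ n + 1 + 2 = n - 1))
      omega)
    have h4 := hne ⟨n - 2, by omega⟩ ⟨n, by omega⟩ (vne _ _ (by omega))
    have h5 := hne ⟨n - 2, by omega⟩ ⟨n + 1, by omega⟩ (vne _ _ (by omega))
    have h6 := hne ⟨n, by omega⟩ ⟨n + 1, by omega⟩ (vne _ _ (by omega))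
    have := (σ ⟨n - 1, by omega⟩).2
    have := (σ ⟨n - 2, by omega⟩).2
    have := (σ ⟨n, by omega⟩).2
    have := (σ ⟨n + 1, by omega⟩).2
    omega
  -- the leaf nodes
  have hleaf : ∀ i : Fin (n + 2), (i : ℕ) = n ∨ (i : ℕ) = n + 1 → (σ i : ℕ) = n ∨ (σ i : ℕ) = n + 1 := by
    intro i hi
    have h1 := (hadj i ⟨n - 1, by omega⟩ (fun h => by
      have : (i : ℕ) = n - 1 := congrArg Fin.val h
      omega)).2 (by
      show ((n - 1 < n + 1 ∧ (i : ℕ) + 1 = n - 1 ∨ n - 1 = n + 1 ∧ (i : ℕ) + 2 = n - 1) ∨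
        ((i : ℕ) < n + 1 ∧ n - 1 + 1 = i ∨ (i : ℕ) = n + 1 ∧ n - 1 + 2 = i))
      omega)
    rw [hb] at h1
    by_contra hcon
    -- then `σ i = n - 2`, which has another neighbour
    have h2 : (σ i : ℕ) = n - 2 := by
      have := (σ i).2
      omega
    obtain ⟨y, hy⟩ := σ.surjective ⟨n - 3, by omega⟩
    have hy' : (σ y : ℕ) = n - 3 := congrArg Fin.val hy
    have hyi : y ≠ i := by
      rintro rfl
      omega
    have h3 := (hadj y i hyi).1 (by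
      rw [hy', h2]
      omega)
    have hyb : y ≠ ⟨n - 1, by omega⟩ := by
      intro h
      rw [h] at hy'
      omega
    have hyb' : (y : ℕ) ≠ n - 1 := fun h => hyb (Fin.ext h)
    have := y.2
    omega
  set T : Set (Fin (n + 2)) := {i | (i : ℕ) = n - 1 ∨ (i : ℕ) = n ∨ (i : ℕ) = n + 1} with hT
  have hone : ∀ i ∈ T, σ i = i := by
    refine h.fix ?_ ?_ ?_
    · intro h1
      have h2 : (⟨0, by omega⟩ : Fin (n + 2)) ∈ T := by rw [h1]; trivial
      rcases h2 with h2 | h2 | h2 <;> simp only at h2 <;> omega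
    · rintro i (hi | hi)
      · left
        have : i = ⟨n - 1, by omega⟩ := Fin.ext hi
        rw [this]
        exact hb
      · right
        exact hleaf i hi
    · rintro i (hi | hi)
      · refine ⟨⟨n, by omega⟩, Or.inr (Or.inl rfl), fun h => ?_, ?_⟩
        · have : n = (i : ℕ) := congrArg Fin.val h
          omega
        · rw [hA _ _ (fun h => by
            have : (i : ℕ) = n := congrArg Fin.val h
            omega)]
          show ((n < n + 1 ∧ (i : ℕ) + 1 = n ∨ n = n + 1 ∧ (i : ℕ) + 2 = n) ∨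
            ((i : ℕ) < n + 1 ∧ n + 1 = i ∨ (i : ℕ) = n + 1 ∧ n + 2 = i))
          omega
      · refine ⟨⟨n - 1, by omega⟩, Or.inl rfl, fun h => ?_, ?_⟩
        · have : n - 1 = (i : ℕ) := congrArg Fin.val h
          omega
        · rw [hA _ _ (fun h => by
            have : (i : ℕ) = n - 1 := congrArg Fin.val h
            omega)]
          show ((n - 1 < n + 1 ∧ (i : ℕ) + 1 = n - 1 ∨ n - 1 = n + 1 ∧ (i : ℕ) + 2 = n - 1) ∨
            ((i : ℕ) < n + 1 ∧ n - 1 + 1 = i ∨ (i : ℕ) = n + 1 ∧ n - 1 + 2 = i))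
          omega
  have key : ∀ k : ℕ, ∀ hk : k < n + 2, (σ ⟨n + 1 - k, by omega⟩ : ℕ) = n + 1 - k := by
    intro k
    induction k using Nat.strong_induction_on with
    | _ k ih =>
      intro hk
      by_cases h2 : k ≤ 2
      · rw [hone ⟨n + 1 - k, by omega⟩ (by
          show n + 1 - k = n - 1 ∨ n + 1 - k = n ∨ n + 1 - k = n + 1
          omega)]
      · -- `σ (n + 1 - k)` is adjacent to `n + 2 - k`
        have h5 := ih (k - 1) (by omega) (by omega)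
        have h6 := ih (k - 2) (by omega) (by omega)
        have h7 := (hadj ⟨n + 1 - k, by omega⟩ ⟨n + 1 - (k - 1), by omega⟩ (vne _ _ (by omega))).2 (by
          show ((n + 1 - (k - 1) < n + 1 ∧ n + 1 - k + 1 = n + 1 - (k - 1) ∨
            n + 1 - (k - 1) = n + 1 ∧ n + 1 - k + 2 = n + 1 - (k - 1)) ∨
            (n + 1 - k < n + 1 ∧ n + 1 - (k - 1) + 1 = n + 1 - k ∨ n + 1 - k = n + 1 ∧ n + 1 - (k - 1) + 2 = n + 1 - k))
          omega)
        have h8 := hne ⟨n + 1 - k, by omega⟩ ⟨n + 1 - (k - 2), by omega⟩ (vne _ _ (by omega))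
        have h9 := hne ⟨n + 1 - k, by omega⟩ ⟨n + 1, by omega⟩ (vne _ _ (by omega))
        have h10 := congrArg Fin.val (hone ⟨n + 1, by omega⟩ (Or.inr (Or.inr rfl)))
        simp only at h10
        have := (σ ⟨n + 1 - k, by omega⟩).2
        omega
  intro i
  apply Fin.ext
  have h5 := key (n + 1 - i) (by have := i.2; omega)
  have h6 : (⟨n + 1 - (n + 1 - (i : ℕ)), by have := i.2; omega⟩ : Fin (n + 2)) = i := Fin.ext (by
    show n + 1 - (n + 1 - (i : ℕ)) = i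
    have := i.2
    omega)
  rw [h6] at h5
  have := i.2
  omega

/-- the matrix of type `D₄` -/
def mD (i j : Fin 4) : ℕ := if i = j then 1 else if i = 1 ∨ j = 1 then 3 else 2

theorem mD_eq (i j : Fin 4) : TypeD.M 2 i j = mD i j := by
  fin_cases i <;> fin_cases j <;> rfl

theorem comb_D4_aux : ∀ x0 x1 x2 x3 : Fin 4,
    (∀ i j : Fin 4, mD (![x0, x1, x2, x3] i) (![x0, x1, x2, x3] j) = mD i j) →
    (∀ i : Fin 4, (![x0, x1, x2, x3] : Fin 4 → Fin 4) (![x0, x1, x2, x3] i) = i) →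
      x1 = 1 ∧ (x0 ≠ 0 → x2 = 2 ∨ x3 = 3) ∧ (x2 ≠ 2 → x0 = 0 ∨ x3 = 3) ∧ (x3 ≠ 3 → x0 = 0 ∨ x2 = 2) := by
  decide

/-- type `D₄`, `σ² = 1` -/
theorem comb_D4 {σ : Equiv.Perm (Fin 4)} (hM : ∀ i j, TypeD.M 2 (σ i) (σ j) = TypeD.M 2 i j)
    (h2 : ∀ i, σ (σ i) = i) (h : CT (TypeD.M 2) σ) : ∀ i, σ i = i := by
  have hσ : (σ : Fin 4 → Fin 4) = ![σ 0, σ 1, σ 2, σ 3] := by
    funext i; fin_cases i <;> rfl
  have h1 := comb_D4_aux (σ 0) (σ 1) (σ 2) (σ 3)
  rw [← hσ] at h1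
  obtain ⟨e1, e0, e2, e3⟩ := h1 (fun i j => by rw [← mD_eq, ← mD_eq]; exact hM i j) h2
  -- remove a fixed leaf
  have key : ∀ a : Fin 4, a ≠ 1 → σ a = a → ∀ i, σ i = i := by
    intro a ha hfix i
    by_cases hi : i = a
    · rw [hi, hfix]
    refine h.fix (T := {i | i ≠ a}) ?_ ?_ ?_ i hi
    · intro h3
      have : a ∈ {i | i ≠ a} := by rw [h3]; trivial
      exact this rfl
    · intro i hi h3
      rw [← hfix] at h3
      exact hi (σ.injective h3)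
    · intro i hi
      have hi : i ≠ a := hi
      by_cases h3 : i = 1
      · subst h3
        have h4 : ∀ a : Fin 4, a ≠ 1 → (∃ j : Fin 4, j ≠ a ∧ j ≠ 1 ∧ (TypeD.M 2 1 j : ℕ) ≠ 2) := by
          intro a ha
          by_cases h5 : a = 0
          · exact ⟨2, by rw [h5]; decide, by decide, by decide⟩
          · exact ⟨0, fun h => h5 h.symm, by decide, by decide⟩
        exact h4 a ha
      · refine ⟨1, fun h4 => ha h4.symm, fun h4 => h3 h4.symm, ?_⟩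
        have h5 : ∀ i : Fin 4, i ≠ 1 → (TypeD.M 2 i 1 : ℕ) ≠ 2 := by decide
        exact h5 i h3
  by_cases h0 : σ 0 = 0
  · exact key 0 (by decide) h0
  · rcases e0 h0 with h3 | h3
    · exact key 2 (by decide) h3
    · exact key 3 (by decide) h3

end Cfsg.Agent.H520.Comb
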