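import Cfsg.Agent.H520.CcpNE
import Cfsg.Agent.H460.EngFix
import Cfsg.Agent.H289.D4T.Par

/-!
# The non-elliptic automorphisms of a group with a split (B, N)-pair (helper520, S4114)

* `exists_res_of_bta` : Borel–Tits gives an invariant residue;
* `ne_main` : if the automorphism with `Cfg` is not elliptic, then it fixes a chamber, is not type preserving, and the
  moved nodes are isolated with solvable parabolic subgroups, in each invariant proper set of nodes;
* `noswap_false` : the use of `NoSwap`.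

`J0` is the hypothesis that the minimal invariant residues with a solvable `[P, α]` are chambers.
-/

set_option autoImplicit false
set_option linter.unusedSectionVars false

open scoped Pointwise

namespace Cfsg.Agent.H520.EngNE

open Cfsg Cfsg.Agent.LieExceptional.BNPairCore Cfsg.Agent.Tits.Core Cfsg.Agent.Tits.Core.Bldg Cfsg.Agent.Tits.OfBN
  Cfsg.Agent.Schreier.BNSch Cfsg.Agent.Tits.OppRes Cfsg.Agent.FixBN.OfBN
open Cfsg.Agent.FixBN (Sys Split)
open Cfsg.Agent.FixOdd (Tw)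
open Cfsg.Agent.H460.Engine
open Cfsg.Agent.H459.Gallery (Iv cx cx_apply)
open Cfsg.Agent.H694 (PJ PJ_sub mem_PJ)

/-- the minimal invariant residues are chambers -/
def J0 : Prop := ∀ {I : Type} [Finite I] [DecidableEq I] {M : CoxeterMatrix I} {W : Type} [Group W]
  {cs : CoxeterSystem M W} {C : Type} [Finite C] {Δ : Bldg cs C} {G : Type} [Group G] [Finite G] [MulAction G C]
  {r : ℕ} [Fact r.Prime] [Cox cs] (_ : Sys Δ G r) (_ : Δ.Thick)
  (_ : ∀ x y x' y' : C, Δ.δ x y = Δ.δ x' y' → ∃ g : G, g • x = x' ∧ g • y = y')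
  {t : Tw Δ G} (_ : CCP t.τ) {J : Set I} {x : C} (_ : t.Gd J x)
  (_ : Group.IsSolvable (cM t.τ (MulAction.stabilizer G (Δ.Res J x)))), J = ∅

variable {K : Type*} [Group K] [Finite K] {ℓ : ℕ} [Fact ℓ.Prime] {l : ℕ} {M : CoxeterMatrix (Fin l)} {Q : Fin l → ℕ}
  {E : Eng ℓ K M Q}

theorem dtr (E : Eng ℓ K M Q) (x y x' y' : K ⧸ E.P.B) (h : E.Δ.δ x y = E.Δ.δ x' y') :
    ∃ g : K, g • x = x' ∧ g • y = y' := Tits.OfBN.trans E.P x y x' y' h

/-- Sylow subgroup with normaliser `B` -/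
theorem exists_sylow (E : Eng ℓ K M Q) : ∃ U : Sylow ℓ K, (U : Subgroup K) = E.U ∧
    Subgroup.normalizer ((U : Subgroup K) : Set K) = E.P.B := by
  obtain ⟨U, hU⟩ := H459.RgdRad.exists_sylow E.S
  exact ⟨U, hU, by rw [hU]; exact E.S.normalizer_eq⟩

theorem normalizer_smul {G : Type*} [Group G] (g : G) (U : Subgroup G) :
    Subgroup.normalizer (((MulAut.conj g) • U : Subgroup G) : Set G) = (MulAut.conj g) • Subgroup.normalizer (U : Set G) := by
  ext x
  rw [Subgroup.mem_pointwise_smul_iff_inv_smul_mem, Subgroup.mem_normalizer_iff, Subgroup.mem_normalizer_iff]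
  have e : (MulAut.conj g)⁻¹ • x = g⁻¹ * x * g := by
    rw [← map_inv, MulAut.smul_def, MulAut.conj_apply, inv_inv]
  rw [e]
  constructor
  · intro h y
    have h1 := h (g * y * g⁻¹)
    rw [Subgroup.mem_pointwise_smul_iff_inv_smul_mem,
      Subgroup.mem_pointwise_smul_iff_inv_smul_mem, ← map_inv, MulAut.smul_def, MulAut.conj_apply, MulAut.smul_def,
      MulAut.conj_apply, inv_inv] at h1
    have e1 : g⁻¹ * (g * y * g⁻¹) * g = y := by group
    have e2 : g⁻¹ * (x * (g * y * g⁻¹) * x⁻¹) * g = g⁻¹ * x * g * y * (g⁻¹ * x * g)⁻¹ := by group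
    rw [e1, e2] at h1
    exact h1
  · intro h y
    have h1 := h (g⁻¹ * y * g)
    rw [Subgroup.mem_pointwise_smul_iff_inv_smul_mem,
      Subgroup.mem_pointwise_smul_iff_inv_smul_mem, ← map_inv, MulAut.smul_def, MulAut.conj_apply, MulAut.smul_def,
      MulAut.conj_apply, inv_inv]
    have e2 : g⁻¹ * x * g * (g⁻¹ * y * g) * (g⁻¹ * x * g)⁻¹ = g⁻¹ * (x * y * x⁻¹) * g := by group
    rw [e2] at h1
    exact h1

/-- **Borel–Tits.** -/
theorem exists_res_of_bta (hBT : BTA ℓ K) {t : Tw E.Δ K} (hE : ¬ EL ℓ t.τ) :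
    ∃ J : Set (Fin l), J ≠ Set.univ ∧ (∀ i ∈ J, t.σ i ∈ J) ∧ ∃ y, t.θ y ∈ E.Δ.Res J y := by
  have hC : Cox E.cs := inferInstance
  obtain ⟨M₀, U, hM, hU, hiv⟩ := hBT t.τ hE
  obtain ⟨U', -, hN'⟩ := exists_sylow E
  obtain ⟨g, hg⟩ := MulAction.exists_smul_eq K U' U
  have hg' : (U : Subgroup K) = MulAut.conj g • (U' : Subgroup K) := by rw [← hg]; rfl
  rw [hg', normalizer_smul, hN'] at hU
  set M₁ : Subgroup K := (MulAut.conj g)⁻¹ • M₀ with hM₁
  have hmem : ∀ a, a ∈ M₁ ↔ g * a * g⁻¹ ∈ M₀ := by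
    intro a
    rw [hM₁, Subgroup.mem_pointwise_smul_iff_inv_smul_mem, inv_inv, MulAut.smul_def, MulAut.conj_apply]
  obtain ⟨J, hJ, hst, hy⟩ := H289.D4T.exists_res (t := t) (M₀ := M₁) (g₀ := g) E.e E.cs E.hcs (by
      intro b hb
      rw [hmem]
      apply hU
      rw [Subgroup.mem_pointwise_smul_iff_inv_smul_mem, ← map_inv, MulAut.smul_def, MulAut.conj_apply]
      have : g⁻¹ * (g * b * g⁻¹) * g⁻¹⁻¹ = b := by group
      rw [this]; exact hb) (by
      intro h
      apply hM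
      rw [eq_top_iff]
      intro a _
      have h1 : g⁻¹ * a * g ∈ M₁ := by rw [h]; trivial
      rw [hmem] at h1
      have : g * (g⁻¹ * a * g) * g⁻¹ = a := by group
      rwa [this] at h1) (by
      intro a ha
      rw [hmem] at ha ⊢
      rw [cx_apply]
      have : g * (g⁻¹ * t.τ (g * a * g⁻¹) * g) * g⁻¹ = t.τ (g * a * g⁻¹) := by group
      rw [this]
      exact hiv _ ha)
  exact ⟨J, hJ, hst, _, hy⟩

/-- commuting simple reflections -/
theorem comm_iff {W : Type*} [Group W] [Finite W] (cs : CoxeterSystem M W) [Cox cs] {i j : Fin l} (hij : i ≠ j) :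
    cs.simple i * cs.simple j = cs.simple j * cs.simple i ↔ M i j = 2 := by
  have h1 := LieRecognition.CoxForm.orderOf_eq cs i j
  constructor
  · intro h
    have h2 : (cs.simple i * cs.simple j) ^ 2 = 1 := by
      rw [pow_two]
      nth_rw 2 [h]
      have := cs.simple_mul_simple_self i
      have h3 := cs.simple_mul_simple_self j
      calc cs.simple i * cs.simple j * (cs.simple j * cs.simple i) = cs.simple i * (cs.simple j * cs.simple j) * cs.simple i := by group
        _ = 1 := by rw [h3, mul_one, this]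
    have h3 : cs.simple i * cs.simple j ≠ 1 := by
      intro h3
      rw [mul_eq_one_iff_eq_inv, cs.inv_simple] at h3
      exact hij (Cox.inj h3)
    rw [← h1]
    exact orderOf_eq_prime h2 h3
  · intro h
    have h2 := cs.simple_mul_simple_pow i j
    rw [h, pow_two] at h2
    calc cs.simple i * cs.simple j = (cs.simple i * cs.simple j)⁻¹ := by rw [eq_inv_iff_mul_eq_one]; exact h2
      _ = _ := by rw [mul_inv_rev, cs.inv_simple, cs.inv_simple]

theorem solv_stab (E : Eng ℓ K M Q) (c : K ⧸ E.P.B) : Group.IsSolvable (MulAction.stabilizer K c) := by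
  obtain ⟨g, rfl⟩ := QuotientGroup.mk_surjective c
  have hle : MulAction.stabilizer K (QuotientGroup.mk g : K ⧸ E.P.B) ≤ E.P.B.map (MulAut.conj g).toMonoidHom := by
    intro k hk
    have h1 : k • (QuotientGroup.mk g : K ⧸ E.P.B) = QuotientGroup.mk g := hk
    rw [smul_mk_eq] at h1
    exact ⟨_, h1, by
      show g * (g⁻¹ * k * g) * g⁻¹ = k
      group⟩
  have h2 := E.sol
  have h3 : Group.IsSolvable (E.P.B.map (MulAut.conj g).toMonoidHom) :=
    Group.isSolvable_of_surjective (f := (MulAut.conj g).toMonoidHom.subgroupMap E.P.B)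
      ((MulAut.conj g).toMonoidHom.subgroupMap_surjective E.P.B)
  exact Group.isSolvable_of_isSolvable_injective (Subgroup.inclusion_injective hle)

theorem solv_parabolic {c : K ⧸ E.P.B} {i : Fin l} (h : Group.IsSolvable (MulAction.stabilizer K (E.Δ.Pan i c))) :
    Group.IsSolvable (E.P.parabolic {(E.e i : K)}) := by
  have hC : Cox E.cs := inferInstance
  obtain ⟨g, rfl⟩ := QuotientGroup.mk_surjective c
  rw [← PJ_singleton]
  have hle : (PJ E.P E.e {i}).map (MulAut.conj g).toMonoidHom ≤ MulAction.stabilizer K (E.Δ.Pan i (QuotientGroup.mk g)) := by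
    rintro _ ⟨k, hk, rfl⟩
    have hk : k ∈ PJ E.P E.e {i} := hk
    rw [E.Δ.Pan_eq_Res, NE.mem_stab_res E.sys]
    have e : (MulAut.conj g).toMonoidHom k • (QuotientGroup.mk g : K ⧸ E.P.B) = QuotientGroup.mk (g * k) := by
      rw [smul_mk]
      congr 1
      show g * k * g⁻¹ * g = g * k
      group
    rw [e, mem_Res, bldg_δ_mk, inv_mul_cancel_left, ← mem_PJ E.e E.cs E.hcs]
    exact hk
  have h1 : Group.IsSolvable ((PJ E.P E.e {i}).map (MulAut.conj g).toMonoidHom) :=
    Group.isSolvable_of_isSolvable_injective (Subgroup.inclusion_injective hle)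
  have e := (PJ E.P E.e {i}).equivMapOfInjective (MulAut.conj g).toMonoidHom (MulAut.conj g).injective
  exact Group.isSolvable_of_surjective (f := e.symm.toMonoidHom) e.symm.surjective

/-- **The non-elliptic automorphisms.** -/
theorem ne_main (hJ0 : ∀ {t : Tw E.Δ K} {J : Set (Fin l)} {x : K ⧸ E.P.B}, CCP t.τ → t.Gd J x →
      Group.IsSolvable (cM t.τ (MulAction.stabilizer K (E.Δ.Res J x))) → J = ∅) (hl : 1 ≤ l)
    (hnb : ∀ i, ∃ j, j ≠ i ∧ M i j ≠ 2) (hBT : BTA ℓ K) (hℓ : ℓ ∣ Nat.card K) {t : Tw E.Δ K} (h : Cfg t.τ)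
    (hEL : ¬ EL ℓ t.τ) (hθ : ∀ n : ℕ, t.τ ^ n = 1 → t.θ ^ n = 1) :
    ∃ c, t.θ c = c ∧ (∃ i, t.σ i ≠ i) ∧ ∀ T : Set (Fin l), T ≠ Set.univ → (∀ i ∈ T, t.σ i ∈ T) → ∀ i ∈ T, t.σ i ≠ i →
      (∀ j ∈ T, j ≠ i → M i j = 2) ∧ Group.IsSolvable (E.P.parabolic {(E.e i : K)}) := by
  have hC : Cox E.cs := inferInstance
  have hne : Nonempty (Fin l) := ⟨⟨0, hl⟩⟩
  obtain ⟨J, hJ, hst, y, hy⟩ := exists_res_of_bta hBT hEL
  obtain ⟨J', hJ', c, hc, hgd⟩ := t.exists_gd hst hy
  have hJ'' : J' ≠ Set.univ := fun h => hJ (Set.eq_univ_of_univ_subset (h ▸ hJ'))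
  have hsolv : Group.IsSolvable (cM t.τ (MulAction.stabilizer K (E.Δ.Res J' c))) := by
    refine h.min _ ?_ ?_
    · intro htop
      obtain ⟨j, hj⟩ := (Set.ne_univ_iff_exists_notMem J').1 hJ''
      obtain ⟨z, -, -, hz, -⟩ := E.th c j
      obtain ⟨g, hg, -⟩ := dtr E c c z z (by rw [E.Δ.δ_self, E.Δ.δ_self])
      have h1 : g ∈ MulAction.stabilizer K (E.Δ.Res J' c) := by rw [htop]; trivial
      rw [NE.mem_stab_res E.sys, hg, mem_Res, hz] at h1
      exact hj (hC.descent_mem J' _ h1 j (by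
        rw [E.cs.simple_mul_simple_self, E.cs.length_one, E.cs.length_simple]; norm_num))
    · intro m hm
      rw [NE.mem_stab_res E.sys] at hm ⊢
      have h1 := t.θ_mem_Res hgd.st hm
      rw [t.θ_smul] at h1
      have h2 := hgd.θ_mem
      have h3 : t.τ m • t.θ c ∈ E.Δ.Res J' (t.τ m • c) := by
        rw [mem_Res, E.sys.iso]
        exact h2
      exact E.Δ.mem_Res_trans (E.Δ.mem_Res_trans h2 h1) (E.Δ.mem_Res_symm h3)
  obtain rfl := hJ0 h.ccp hgd hsolv
  have hcc : t.θ c = c := by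
    have h1 := hgd.mem
    rw [E.Δ.Res_empty] at h1
    exact h1
  refine ⟨c, hcc, ?_, fun T hT hst i hi hi' => ?_⟩
  · by_contra hcon
    push Not at hcon
    exact NE.type_false E.sys E.th (dtr E) h hℓ hcon (fun i => by
      obtain ⟨j, hj, hM⟩ := hnb i
      exact ⟨j, fun h1 => hM ((comm_iff E.cs (Ne.symm hj)).1 h1)⟩) hθ hcc
  · obtain ⟨h1, h2⟩ := NE.moved E.sys E.th (dtr E) h hcc hT hst hi hi'
    exact ⟨fun j hj hji => (comm_iff E.cs (Ne.symm hji)).1 (h1 j hj), solv_parabolic (h2 (solv_stab E c))⟩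

/-- the Sylow subgroup of a chamber -/
theorem exists_sylow_at (E : Eng ℓ K M Q) (c : K ⧸ E.P.B) : ∃ U : Sylow ℓ K, (U : Subgroup K) = E.sys.U c ∧
    Subgroup.normalizer ((U : Subgroup K) : Set K) = MulAction.stabilizer K c := by
  obtain ⟨g, rfl⟩ := QuotientGroup.mk_surjective c
  obtain ⟨U', hU', hN'⟩ := exists_sylow E
  have hN : Subgroup.normalizer ((MulAut.conj g • (U' : Subgroup K) : Subgroup K) : Set K) =
      MulAction.stabilizer K (QuotientGroup.mk g : K ⧸ E.P.B) := by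
    rw [normalizer_smul, hN']
    ext x
    rw [Subgroup.mem_pointwise_smul_iff_inv_smul_mem, ← map_inv, MulAut.smul_def, MulAut.conj_apply, inv_inv]
    exact (smul_mk_eq (P := E.P)).symm
  have hc : ((g • U' : Sylow ℓ K) : Subgroup K) = MulAut.conj g • (U' : Subgroup K) := rfl
  refine ⟨g • U', ?_, by rw [hc]; exact hN⟩
  have hle : ((g • U' : Sylow ℓ K) : Subgroup K) ≤ E.sys.U (QuotientGroup.mk g) := by
    refine E.sys.max _ _ (g • U' : Sylow ℓ K).isPGroup' ?_
    intro v hv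
    have h1 : v ∈ MulAction.stabilizer K (QuotientGroup.mk g : K ⧸ E.P.B) := by
      rw [← hN, ← hc]
      exact Subgroup.le_normalizer hv
    exact h1
  exact ((g • U' : Sylow ℓ K).is_maximal' (E.sys.isP _) hle).symm

/-- **The use of `NoSwap`.** -/
theorem noswap_false (hns : NoSwap ℓ K) {t : Tw E.Δ K} (h : Cfg t.τ) {c : K ⧸ E.P.B} (hc : t.θ c = c) {i j : Fin l}
    (hij : i ≠ j) (h1 : t.σ i = j) (h2 : t.σ j = i) : False := by
  have hC : Cox E.cs := inferInstance
  obtain ⟨U, hU, hN⟩ := exists_sylow_at E c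
  have hle : ∀ i, Subgroup.normalizer ((U : Subgroup K) : Set K) < MulAction.stabilizer K (E.Δ.Res {i} c) := by
    intro i
    rw [hN]
    refine lt_of_le_of_ne ?_ ?_
    · intro b hb
      rw [NE.mem_stab_res E.sys, show b • c = c from hb]
      exact E.Δ.self_mem_Res _ _
    · intro he
      obtain ⟨z, -, -, hz, -⟩ := E.th c i
      obtain ⟨g, hg, -⟩ := dtr E c c z z (by rw [E.Δ.δ_self, E.Δ.δ_self])
      have h3 : g ∈ MulAction.stabilizer K (E.Δ.Res {i} c) := by
        rw [NE.mem_stab_res E.sys, hg, ← E.Δ.Pan_eq_Res]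
        exact E.Δ.mem_Pan_of_δ hz
      rw [← he, MulAction.mem_stabilizer_iff, hg] at h3
      exact E.Δ.ne_of_δ_simple hz h3.symm
  have hmem : ∀ {i j : Fin l} {g : K}, i ≠ j → E.Δ.δ c (g • c) = E.cs.simple i →
      g ∉ MulAction.stabilizer K (E.Δ.Res {j} c) := by
    intro i j g hij hg hcon
    rw [NE.mem_stab_res E.sys, mem_Res, hg] at hcon
    have := hC.descent_mem {j} _ hcon i (by
      rw [E.cs.simple_mul_simple_self, E.cs.length_one, E.cs.length_simple]; norm_num)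
    exact hij this
  have hex : ∀ i, ∃ g : K, E.Δ.δ c (g • c) = E.cs.simple i := by
    intro i
    obtain ⟨z, -, -, hz, -⟩ := E.th c i
    obtain ⟨g, hg, -⟩ := dtr E c c z z (by rw [E.Δ.δ_self, E.Δ.δ_self])
    exact ⟨g, by rw [hg, hz]⟩
  have hτ : ∀ i j : Fin l, t.σ i = j → ∀ m ∈ MulAction.stabilizer K (E.Δ.Res {i} c),
      t.τ m ∈ MulAction.stabilizer K (E.Δ.Res {j} c) := by
    intro i j hij m hm
    rw [NE.mem_stab_res E.sys] at hm ⊢
    rw [← E.Δ.Pan_eq_Res] at hm ⊢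
    rcases hm with hm | hm
    · left
      have h3 := t.θ_smul m c
      rw [hm, hc] at h3
      exact h3.symm
    · right
      have h3 := t.δ_θ c (m • c)
      rw [hm, t.θ_smul, hc, t.φ_simple, hij] at h3
      exact h3
  obtain ⟨gi, hgi⟩ := hex i
  obtain ⟨gj, hgj⟩ := hex j
  refine hns t.τ h U (fun m hm => ?_) (MulAction.stabilizer K (E.Δ.Res {i} c)) (MulAction.stabilizer K (E.Δ.Res {j} c))
    (hle i) (hle j) ?_ ?_ ?_ (hτ i j h1) (hτ j i h2)
  · rw [hU] at hm ⊢
    have := t.τ_mem_U E.sys hm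
    rwa [hc] at this
  · intro he
    have h3 : gi ∈ MulAction.stabilizer K (E.Δ.Res {i} c) := by
      rw [NE.mem_stab_res E.sys, ← E.Δ.Pan_eq_Res]
      exact E.Δ.mem_Pan_of_δ hgi
    rw [he] at h3
    exact hmem hij hgi h3
  · intro he
    exact hmem hij.symm hgj (by rw [he]; trivial)
  · intro he
    exact hmem hij hgi (by rw [he]; trivial)

end Cfsg.Agent.H520.EngNE
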